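import Groth.Agent.Pi1C.ClopenExtend
import Groth.Agent.Pi1B.ExtBasic2
import Groth.Agent.Pi1A.ClopenCrit
import Groth.Prelude.Def_FEt

/-!
# Fully faithful restriction from connected punctured spectra
-/

set_option autoImplicit false
universe u

open CategoryTheory CategoryTheory.Limits AlgebraicGeometry TopologicalSpace

namespace Groth.Agent.Sga2lef.H90.ClopenGlob

open Groth.Agent

/-- The punctured spectrum of the local ring at `t`, as a topological space over `T`. -/
theorem exists_punctured {T : Scheme.{u}} (t : T) :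
    Function.Injective ((FEt.puncturedSpec (T.presheaf.stalk t)).ι ≫ T.fromSpecStalk t) ∧
    ∀ z : T, z ∈ Set.range ((FEt.puncturedSpec (T.presheaf.stalk t)).ι ≫ T.fromSpecStalk t) ↔
      (z ⤳ t ∧ z ≠ t) := by
  have hinj : Function.Injective (T.fromSpecStalk t) := (T.fromSpecStalk t).isEmbedding.injective
  have hcl : T.fromSpecStalk t (IsLocalRing.closedPoint (T.presheaf.stalk t)) = t :=
    Scheme.fromSpecStalk_closedPoint
  have hmem : ∀ p : Spec (T.presheaf.stalk t), p ∈ FEt.puncturedSpec (T.presheaf.stalk t) ↔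
    p ≠ IsLocalRing.closedPoint (T.presheaf.stalk t) := fun p => Iff.rfl
  refine ⟨?_, ?_⟩
  · intro p q hpq
    rw [Scheme.Hom.comp_apply, Scheme.Hom.comp_apply] at hpq
    exact (FEt.puncturedSpec (T.presheaf.stalk t)).ι.isOpenEmbedding.injective (hinj hpq)
  · intro z
    constructor
    · rintro ⟨p, rfl⟩
      rw [Scheme.Hom.comp_apply]
      refine ⟨?_, ?_⟩
      · have : T.fromSpecStalk t ((FEt.puncturedSpec (T.presheaf.stalk t)).ι p) ∈
          Set.range (T.fromSpecStalk t) := ⟨_, rfl⟩
        rw [Scheme.range_fromSpecStalk] at this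
        exact this
      · intro h
        exact (hmem _).mp p.2 (hinj (h.trans hcl.symm))
    · rintro ⟨h1, h2⟩
      have : z ∈ Set.range (T.fromSpecStalk t) := by
        rw [Scheme.range_fromSpecStalk]; exact h1
      obtain ⟨p, rfl⟩ := this
      refine ⟨⟨p, ?_⟩, ?_⟩
      · rw [hmem]
        rintro rfl
        exact h2 hcl
      · rw [Scheme.Hom.comp_apply]
        rfl

/-- Clopen subsets of an open of a locally Noetherian scheme extend uniquely if the punctured spectra
of the local rings at the points of the complement are connected. -/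
theorem existsUnique_clopen {V T : Scheme.{u}} [IsLocallyNoetherian T] (f : V ⟶ T) [IsOpenImmersion f]
    (h : ∀ t : T, t ∉ Set.range f →
      ConnectedSpace (FEt.puncturedSpec (T.presheaf.stalk t) : Scheme.{u}))
    (W : Set V) (hW : IsClopen W) : ∃! W' : Set T, IsClopen W' ∧ f ⁻¹' W' = W := by
  have hemb : Topology.IsOpenEmbedding f := f.isOpenEmbedding
  have hqc : QuasiCompact f := inferInstance
  have hcl : ∀ (A : Set V), IsClopen A → ∀ y : T, y ∈ closure (f '' A) → ∃ w ∈ f '' A, w ⤳ y := by
    intro A hA y hy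
    refine Pi1C.ClopenExtend.exists_specializes_of_mem_closure_scheme
      (hemb.isOpenMap _ hA.isOpen) (fun N hN => ?_) hy
    have h1 : IsCompact (f ⁻¹' N) := QuasiCompact.isCompact_preimage _ N.isOpen hN.isCompact
    have h2 : IsCompact (A ∩ f ⁻¹' N) := h1.inter_left hA.isClosed
    rw [← Set.image_inter_preimage]
    exact h2.image hemb.continuous
  -- maximal points lie in the open
  have hmaxpt : ∀ η : T, (∀ y : T, y ⤳ η → y = η) → η ∈ Set.range f := by
    intro η hη
    by_contra hηf
    obtain ⟨p⟩ := (h η hηf).toNonempty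
    have h1 := (exists_punctured η).2 _ |>.mp ⟨p, rfl⟩
    exact h1.2 (hη _ h1.1)
  have hdense : ∀ y : T, y ∈ closure (Set.range f) := by
    intro y
    obtain ⟨η, hηy, -, hη⟩ := Pi1B.ExtBasic.exists_specializes_maximal T y
    exact hηy.mem_closed isClosed_closure (subset_closure (hmaxpt η hη))
  have hU : ∀ (A : Set V), IsClopen A → ∀ v : V, f v ∈ closure (f '' A) → v ∈ A := by
    intro A hA v hv
    obtain ⟨w, ⟨w', hw', rfl⟩, hwv⟩ := hcl A hA _ hv
    rw [hemb.isInducing.specializes_iff] at hwv
    exact hwv.mem_closed hA.isClosed hw'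
  have hsep : ∀ y : T, ¬ (y ∈ closure (f '' W) ∧ y ∈ closure (f '' Wᶜ)) := by
    intro y hy
    let O : T.Opens := ⟨(closure (f '' W) ∩ closure (f '' Wᶜ))ᶜ,
      (isClosed_closure.inter isClosed_closure).isOpen_compl⟩
    have hO : ∀ x : T, x ∉ O ↔ (x ∈ closure (f '' W) ∧ x ∈ closure (f '' Wᶜ)) := by
      intro x
      change ¬ ¬ (x ∈ closure (f '' W) ∧ x ∈ closure (f '' Wᶜ)) ↔ _
      rw [not_not]
    obtain ⟨x, hxy, hxO, hx⟩ := Pi1B.ExtBasic2.exists_maximal_not_mem O y ((hO y).mpr hy)
    obtain ⟨hx1, hx2⟩ := (hO x).mp hxO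
    have hxf : x ∉ Set.range f := by
      rintro ⟨v, rfl⟩
      exact (hU _ hW.compl v hx2) (hU _ hW v hx1)
    have hconn := h x hxf
    let φ := (FEt.puncturedSpec (T.presheaf.stalk x)).ι ≫ T.fromSpecStalk x
    obtain ⟨-, hφ⟩ := exists_punctured x
    have hdisj : ∀ p, ¬ (φ p ∈ closure (f '' W) ∧ φ p ∈ closure (f '' Wᶜ)) := by
      intro p hp
      have h1 := (hφ (φ p)).mp ⟨p, rfl⟩
      exact h1.2 (hx _ h1.1 ((hO _).mpr hp))
    have hcov : ∀ p, (φ p ∈ closure (f '' W) ∨ φ p ∈ closure (f '' Wᶜ)) := by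
      intro p
      have h1 := hdense (φ p)
      rwa [← Set.image_univ, ← Set.union_compl_self W, Set.image_union, closure_union] at h1
    have hclo : IsClopen (φ ⁻¹' closure (f '' W)) := by
      refine ⟨isClosed_closure.preimage φ.continuous, ?_⟩
      have h2 : φ ⁻¹' closure (f '' W) = (φ ⁻¹' closure (f '' Wᶜ))ᶜ := by
        ext p
        exact ⟨fun h3 h4 => hdisj p ⟨h3, h4⟩, fun h3 => (hcov p).resolve_right h3⟩
      rw [h2]
      exact (isClosed_closure.preimage φ.continuous).isOpen_compl
    have hne : ∀ (A : Set V), IsClopen A → x ∈ closure (f '' A) → ∃ p, φ p ∈ closure (f '' A) := by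
      intro A hA hxA
      obtain ⟨w, hw, hwx⟩ := hcl A hA x hxA
      have hwx' : w ≠ x := by
        rintro rfl
        obtain ⟨v, -, rfl⟩ := hw
        exact hxf ⟨v, rfl⟩
      obtain ⟨p, hp⟩ := (hφ w).mpr ⟨hwx, hwx'⟩
      exact ⟨p, by rw [show φ p = w from hp]; exact subset_closure hw⟩
    obtain ⟨p, hp⟩ := hne W hW hx1
    obtain ⟨q, hq⟩ := hne Wᶜ hW.compl hx2
    rcases isClopen_iff.mp hclo with h1 | h1
    · have : p ∈ φ ⁻¹' closure (f '' W) := hp
      rw [h1] at this
      exact this
    · have : q ∈ φ ⁻¹' closure (f '' W) := by rw [h1]; trivial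
      exact hdisj q ⟨this, hq⟩
  refine ⟨(closure (f '' Wᶜ))ᶜ, ⟨⟨?_, isClosed_closure.isOpen_compl⟩, ?_⟩, ?_⟩
  · have : (closure (f '' Wᶜ))ᶜ = closure (f '' W) := by
      ext y
      constructor
      · intro hy
        have h1 := hdense y
        rw [← Set.image_univ, ← Set.union_compl_self W, Set.image_union, closure_union] at h1
        exact h1.resolve_right hy
      · intro hy hy'
        exact hsep y ⟨hy, hy'⟩
    rw [this]
    exact isClosed_closure
  · ext v
    simp only [Set.preimage_compl, Set.mem_compl_iff, Set.mem_preimage]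
    constructor
    · intro hv
      by_contra hvW
      exact hv (subset_closure ⟨v, hvW, rfl⟩)
    · intro hv hv'
      exact hsep (f v) ⟨subset_closure ⟨v, hv, rfl⟩, hv'⟩
  · rintro W' ⟨hW', hfW'⟩
    ext y
    constructor
    · intro hy hy'
      obtain ⟨z, hz1, ⟨z', hz', rfl⟩⟩ := mem_closure_iff.mp hy' W' hW'.isOpen hy
      have : z' ∈ f ⁻¹' W' := hz1
      rw [hfW'] at this
      exact hz' this
    · intro hy
      by_contra hyW'
      have h1 := hdense y
      obtain ⟨z, hz1, ⟨z', rfl⟩⟩ := mem_closure_iff.mp h1 (W'ᶜ ∩ (closure (f '' Wᶜ))ᶜ)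
        (hW'.compl.isOpen.inter isClosed_closure.isOpen_compl) ⟨hyW', hy⟩
      have h2 : z' ∉ W := by
        rw [← hfW']
        exact hz1.1
      exact hz1.2 (subset_closure ⟨z', h2, rfl⟩)

/-- Restriction of finite étale covers to an open of a locally Noetherian scheme is fully faithful if the
punctured spectra of the local rings, at the points over the complement, of all finite étale covers are
connected. -/
theorem fullyFaithful_of_connected {X S : Scheme.{u}} [IsLocallyNoetherian S] (j : X ⟶ S)
    [IsOpenImmersion j]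
    (h : ∀ (T : FEt.Cat S) (t : T.left), T.hom t ∉ Set.range j →
      ConnectedSpace (FEt.puncturedSpec (T.left.presheaf.stalk t) : Scheme.{u})) :
    (FEt.restrict j).Full ∧ (FEt.restrict j).Faithful := by
  have key : ∀ (T : FEt.Cat S) (W : Set ↥(pullback T.hom j)), IsClopen W →
      ∃! W' : Set T.left, IsClopen W' ∧ pullback.fst T.hom j ⁻¹' W' = W := by
    intro T W hW
    have : Etale T.hom := T.prop.2
    have : IsLocallyNoetherian T.left :=
      LocallyOfFiniteType.isLocallyNoetherian (Y := S) (X := T.left) T.hom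
    refine existsUnique_clopen (T := T.left) (pullback.fst T.hom j) ?_ W hW
    intro t ht
    refine h T t fun h1 => ht ?_
    rw [Scheme.Pullback.range_fst]
    exact h1
  refine Pi1A.ClopenCrit.restrict_fullyFaithful_of_isClopen j ?_ ?_
  · intro T U hU h0
    obtain ⟨W', -, huniq⟩ := key T ∅ isClopen_empty
    rw [huniq U ⟨hU, h0⟩, huniq ∅ ⟨isClopen_empty, Set.preimage_empty⟩]
  · intro T V hV
    exact (key T V hV).exists

end Groth.Agent.Sga2lef.H90.ClopenGlob
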