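import Groth.Agent.Sga2lef.H90.Gen
import Groth.Prelude.Def_FEt
import Mathlib.Topology.Connected.Clopen

/-!
# Connectedness of punctured spectra
-/

set_option autoImplicit false
universe u
open TensorProduct IsLocalRing CategoryTheory AlgebraicGeometry

namespace Groth.Agent.Sga2lef.H90.Conn

open Groth.Agent.CalgC.IndEtale

theorem isClopen_mem_iff {X : Type*} [TopologicalSpace X] {C : Set X} (hC : IsClopen C) {x y : X}
    (h : x ⤳ y) : x ∈ C ↔ y ∈ C :=
  ⟨fun hx => h.mem_closed hC.1 hx, fun hy => h.mem_open hC.2 hy⟩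

theorem connectedSpace_of_generization {X : Type*} [TopologicalSpace X] (q : X)
    (h : ∀ v : X, ∃ p : X, p ⤳ v ∧ p ⤳ q) : ConnectedSpace X := by
  have : Nonempty X := ⟨q⟩
  have : PreconnectedSpace X := by
    rw [preconnectedSpace_iff_clopen]
    intro s hs
    have key : ∀ v, v ∈ s ↔ q ∈ s := by
      intro v
      obtain ⟨p, hpv, hpq⟩ := h v
      rw [← isClopen_mem_iff hs hpv, isClopen_mem_iff hs hpq]
    by_cases hq : q ∈ s
    · right
      ext v
      simp [key v, hq]
    · left
      ext v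
      simp [key v, hq]
  exact ⟨inferInstance⟩

/-- Specializations in open subschemes of spectra. -/
theorem specializes_iff {B : Type u} [CommRing B] (U : (Spec (CommRingCat.of B)).Opens) (x y : U) :
    x ⤳ y ↔ (x.1 : PrimeSpectrum B).asIdeal ≤ (y.1 : PrimeSpectrum B).asIdeal := by
  rw [subtype_specializes_iff]
  exact (PrimeSpectrum.le_iff_specializes _ _).symm

theorem mem_puncturedSpec {B : Type u} [CommRing B] [IsLocalRing B] (x : PrimeSpectrum B) :
    x ∈ FEt.puncturedSpec B ↔ x.asIdeal ≠ maximalIdeal B := by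
  change x ≠ closedPoint B ↔ _
  rw [not_iff_not]
  exact ⟨fun h => congrArg PrimeSpectrum.asIdeal h, fun h => PrimeSpectrum.ext h⟩

/-- The punctured spectrum of an ind-smooth local algebra is connected, if the closed fibre has
positive dimension. -/
theorem connectedSpace_puncturedSpec {A B : Type u} [CommRing A] [IsLocalRing A] [CommRing B]
    [IsLocalRing B] [Algebra A B] [IsLocalHom (algebraMap A B)] (h : IsIndSmooth A B)
    (Q : Ideal B) [hQp : Q.IsPrime] (hQ : (maximalIdeal A).map (algebraMap A B) ≤ Q)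
    (hne : Q ≠ maximalIdeal B) :
    ConnectedSpace (FEt.puncturedSpec B : Scheme.{u}) := by
  let q : FEt.puncturedSpec B := ⟨⟨Q, hQp⟩, (mem_puncturedSpec _).mpr hne⟩
  refine connectedSpace_of_generization (X := FEt.puncturedSpec B) q fun v => ?_
  have : (v.1 : PrimeSpectrum B).asIdeal.IsPrime := (v.1 : PrimeSpectrum B).isPrime
  obtain ⟨P, hP, hPv, hPQ⟩ := Gen.exists_common_generization h Q hQ (v.1 : PrimeSpectrum B).asIdeal
  have hPm : P ≠ maximalIdeal B := by
    rintro rfl
    exact hne (le_antisymm (le_maximalIdeal_of_isPrime Q) hPQ)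
  exact ⟨⟨⟨P, hP⟩, (mem_puncturedSpec _).mpr hPm⟩, (specializes_iff _ _ _).mpr hPv,
    (specializes_iff _ _ _).mpr hPQ⟩

end Groth.Agent.Sga2lef.H90.Conn
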