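import Groth.Agent.Sga2lef.H90.Conn
import Groth.Agent.CalgC.TensorLocalPI
import Groth.Agent.Flat2B.GINLocal
import Mathlib.FieldTheory.PurelyInseparable.Basic
import Mathlib.LinearAlgebra.TensorProduct.Quotient
import Mathlib.Topology.NoetherianSpace

/-!
# Ind-smooth local algebras over strictly henselian rings: extensions of primes are prime
-/

set_option autoImplicit false
universe u
open TensorProduct IsLocalRing CategoryTheory AlgebraicGeometry

namespace Groth.Agent.Sga2lef.H90.ConnC

open Groth.Agent.CalgC.IndEtale Groth.Agent.Sga2lef.H90.Conn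

/-- For a local ind-smooth algebra over a strictly henselian local ring, extensions of prime ideals
are prime. -/
theorem isPrime_map {A R : Type u} [CommRing A] [HenselianLocalRing A] [IsSepClosed (ResidueField A)]
    [CommRing R] [IsLocalRing R] [Algebra A R] [IsLocalHom (algebraMap A R)] (h : IsIndSmooth A R)
    (p : Ideal A) [p.IsPrime] : (p.map (algebraMap A R)).IsPrime := by
  let K := p.ResidueField
  let A' := integralClosure (A ⧸ p) K
  have hA' : IsIntegrallyClosed A' :=
    integralClosure.isIntegrallyClosedOfFiniteExtension (R := A ⧸ p) (L := K) p.ResidueField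
  have hint : Algebra.IsIntegral A A' := by
    have h0 : Algebra.IsIntegral (A ⧸ p) A' := inferInstance
    have h1 : Algebra.IsIntegral A (A ⧸ p) := inferInstance
    exact Algebra.IsIntegral.trans (A ⧸ p)
  have hloc : IsLocalRing A' := Flat2B.GINLocal.isLocalRing_of_isIntegral_of_isDomain A A'
  have hlh : IsLocalHom (algebraMap A A') := by
    refine ((IsLocalRing.local_hom_TFAE (algebraMap A A')).out 0 4).mpr ?_
    have : ((maximalIdeal A').comap (algebraMap A A')).IsMaximal :=
      Ideal.isMaximal_comap_of_isIntegral_of_isMaximal (R := A) (maximalIdeal A')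
    exact IsLocalRing.eq_maximalIdeal this
  have halg : Algebra.IsAlgebraic (ResidueField A) (ResidueField A') := by
    have h1 : Algebra.IsIntegral A (ResidueField A') := Algebra.IsIntegral.trans A'
    have h2 : Algebra.IsIntegral (ResidueField A) (ResidueField A') := Algebra.IsIntegral.tower_top A
    exact h2.isAlgebraic
  have hpi : IsPurelyInseparable (ResidueField A) (ResidueField A') := inferInstance
  have hL : IsLocalRing (A' ⊗[A] R) := CalgC.TensorLocalPI.isLocalRing (Or.inl hpi)
  have hR' : IsIndSmooth A' (A' ⊗[A] R) := IsInd.baseChange isGood_smooth h A'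
  have hdom : IsDomain (A' ⊗[A] R) :=
    (Groth.Agent.CalgC.IndNormal.isDomain_and_isIntegrallyClosed' hR').1
  have hflat : Module.Flat A R := IsInd.flat isGood_smooth h
  let i : R →+* A' ⊗[A] R := (Algebra.TensorProduct.includeRight : R →ₐ[A] A' ⊗[A] R).toRingHom
  have hker : RingHom.ker i = p.map (algebraMap A R) := by
    apply le_antisymm
    · intro x hx
      let f : (A ⧸ p) →ₐ[A] A' := Algebra.ofId (A ⧸ p) A' |>.restrictScalars A
      have hf : Function.Injective f.toLinearMap := by
        intro a b hab
        have h1 : algebraMap (A ⧸ p) A' a = algebraMap (A ⧸ p) A' b := hab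
        have h2 := congrArg (algebraMap A' K) h1
        rw [← IsScalarTower.algebraMap_apply, ← IsScalarTower.algebraMap_apply] at h2
        exact (Ideal.injective_algebraMap_quotient_residueField p) h2
      have hf' := Module.Flat.rTensor_preserves_injective_linearMap (M := R) f.toLinearMap hf
      have h3 : (1 : A ⧸ p) ⊗ₜ[A] x = 0 := by
        apply hf'
        rw [map_zero, LinearMap.rTensor_tmul]
        have h4 : f.toLinearMap 1 = 1 := map_one f
        rw [h4]
        exact hx
      have h4 := congrArg (TensorProduct.quotTensorEquivQuotSMul R p) h3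
      rw [map_zero, ← map_one (Ideal.Quotient.mk p), TensorProduct.quotTensorEquivQuotSMul_mk_tmul,
        one_smul, Submodule.Quotient.mk_eq_zero] at h4
      rw [Ideal.smul_top_eq_map] at h4
      exact h4
    · rw [Ideal.map_le_iff_le_comap]
      intro a ha
      change (1 : A') ⊗ₜ[A] (algebraMap A R a) = 0
      rw [Algebra.algebraMap_eq_smul_one, TensorProduct.tmul_smul, TensorProduct.smul_tmul',
        Algebra.smul_def, mul_one]
      have : algebraMap A A' a = 0 := by
        rw [IsScalarTower.algebraMap_apply A (A ⧸ p) A']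
        have : algebraMap A (A ⧸ p) a = 0 := Ideal.Quotient.eq_zero_iff_mem.mpr ha
        rw [this, map_zero]
      rw [this, TensorProduct.zero_tmul]
  rw [← hker]
  exact RingHom.ker_isPrime i

/-- In a Noetherian quasi-sober space, sets stable under specialization and generization are closed. -/
theorem isClosed_of_stable {X : Type*} [TopologicalSpace X] [TopologicalSpace.NoetherianSpace X]
    [QuasiSober X] (T : Set X) (hT : ∀ x y : X, x ⤳ y → (x ∈ T ↔ y ∈ T)) : IsClosed T := by
  have h1 : T = ⋃₀ {Z | Z ∈ irreducibleComponents X ∧ Z ⊆ T} := by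
    ext t
    constructor
    · intro ht
      refine ⟨irreducibleComponent t, ⟨irreducibleComponent_mem_irreducibleComponents t, ?_⟩,
        mem_irreducibleComponent⟩
      intro y hy
      have hirr : IsIrreducible (irreducibleComponent t) := isIrreducible_irreducibleComponent
      have hη := hirr.isGenericPoint_genericPoint_closure
      rw [isClosed_irreducibleComponent.closure_eq] at hη
      have h2 := (hT _ _ (hη.specializes mem_irreducibleComponent)).mpr ht
      exact (hT _ _ (hη.specializes hy)).mp h2
    · rintro ⟨Z, ⟨-, hZ⟩, ht⟩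
      exact hZ ht
  rw [h1, Set.sUnion_eq_biUnion]
  refine Set.Finite.isClosed_biUnion
    (TopologicalSpace.NoetherianSpace.finite_irreducibleComponents.subset fun Z hZ => hZ.1) ?_
  rintro Z ⟨hZ, -⟩
  exact isClosed_of_mem_irreducibleComponents Z hZ

/-- Ascent of connectedness along a monotone section of the specialization order. -/
theorem connectedSpace_of_section {X Y : Type*} [TopologicalSpace X] [TopologicalSpace Y]
    [TopologicalSpace.NoetherianSpace X] [QuasiSober X] [ConnectedSpace X] (s : X → Y)
    (hs : ∀ x y : X, x ⤳ y → s x ⤳ s y) (hg : ∀ v : Y, ∃ x : X, s x ⤳ v) : ConnectedSpace Y := by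
  have x₀ : X := Classical.arbitrary X
  have : Nonempty Y := ⟨s x₀⟩
  have : PreconnectedSpace Y := by
    rw [preconnectedSpace_iff_clopen]
    intro D hD
    have h1 : ∀ x y : X, x ⤳ y → (x ∈ s ⁻¹' D ↔ y ∈ s ⁻¹' D) := fun x y h =>
      isClopen_mem_iff hD (hs x y h)
    have h2 : IsClosed (s ⁻¹' D) := isClosed_of_stable _ h1
    have h3 : IsClosed (s ⁻¹' D)ᶜ := isClosed_of_stable _ fun x y h => not_congr (h1 x y h)
    rcases isClopen_iff.mp (⟨h2, isClosed_compl_iff.mp h3⟩ : IsClopen (s ⁻¹' D)) with h | h
    · left
      ext v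
      obtain ⟨x, hx⟩ := hg v
      rw [← isClopen_mem_iff hD hx, ← Set.mem_preimage, h]
      rfl
    · right
      ext v
      obtain ⟨x, hx⟩ := hg v
      rw [← isClopen_mem_iff hD hx, ← Set.mem_preimage, h]
      rfl
  exact ⟨inferInstance⟩

/-- In case the maximal ideal of the base generates the maximal ideal, connectedness of the punctured
spectrum ascends along local ind-smooth algebras over strictly henselian Noetherian rings. -/
theorem connectedSpace_puncturedSpec {A R : Type u} [CommRing A] [HenselianLocalRing A]
    [IsNoetherianRing A] [IsSepClosed (ResidueField A)]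
    [CommRing R] [IsLocalRing R] [Algebra A R] [IsLocalHom (algebraMap A R)] (h : IsIndSmooth A R)
    (hm : (maximalIdeal A).map (algebraMap A R) = maximalIdeal R)
    (hA : ConnectedSpace (FEt.puncturedSpec A : Scheme.{u})) :
    ConnectedSpace (FEt.puncturedSpec R : Scheme.{u}) := by
  have hflat : Module.Flat A R := IsInd.flat isGood_smooth h
  have hpm : ∀ p : Ideal A, (p.map (algebraMap A R)).comap (algebraMap A R) = p := by
    intro p
    have hff : Module.FaithfullyFlat A R := Module.FaithfullyFlat.of_flat_of_isLocalHom
    exact Ideal.comap_map_eq_self_of_faithfullyFlat (A := A) (B := R) p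
  have hmA : (maximalIdeal R).comap (algebraMap A R) = maximalIdeal A :=
    ((IsLocalRing.local_hom_TFAE (algebraMap A R)).out 0 4).mp ‹_›
  have hmem : ∀ x : PrimeSpectrum A, x.asIdeal ≠ maximalIdeal A →
      x.asIdeal.map (algebraMap A R) ≠ maximalIdeal R := by
    intro x hx h1
    have h2 := hpm x.asIdeal
    rw [h1, hmA] at h2
    exact hx h2.symm
  have hmem' : ∀ v : PrimeSpectrum R, v.asIdeal ≠ maximalIdeal R →
      v.asIdeal.comap (algebraMap A R) ≠ maximalIdeal A := by
    intro v hv h1
    refine hv (le_antisymm (IsLocalRing.le_maximalIdeal_of_isPrime _) ?_)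
    rw [← hm, ← h1]
    exact Ideal.map_comap_le
  have hprime := fun (x : PrimeSpectrum A) => have := x.isPrime; isPrime_map h x.asIdeal
  let s : FEt.puncturedSpec A → FEt.puncturedSpec R := fun x =>
    ⟨(⟨(x.1 : PrimeSpectrum A).asIdeal.map (algebraMap A R), hprime x.1⟩ : PrimeSpectrum R),
      (mem_puncturedSpec (B := R) _).mpr (hmem x.1 ((mem_puncturedSpec (B := A) _).mp x.2))⟩
  have hN : TopologicalSpace.NoetherianSpace (FEt.puncturedSpec A : Scheme.{u}) := by
    have : TopologicalSpace.NoetherianSpace (Spec (CommRingCat.of A)) :=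
      inferInstanceAs (TopologicalSpace.NoetherianSpace (PrimeSpectrum A))
    exact (FEt.puncturedSpec A).isOpenEmbedding.isInducing.noetherianSpace
  refine connectedSpace_of_section (X := (FEt.puncturedSpec A : Scheme.{u}))
    (Y := (FEt.puncturedSpec R : Scheme.{u})) s ?_ ?_
  · intro x y hxy
    have h1 := (specializes_iff (FEt.puncturedSpec A) x y).mp hxy
    exact (specializes_iff (FEt.puncturedSpec R) (s x) (s y)).mpr (Ideal.map_mono h1)
  · intro v
    refine ⟨⟨(⟨(v.1 : PrimeSpectrum R).asIdeal.comap (algebraMap A R), ?_⟩ : PrimeSpectrum A),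
      ?_⟩, ?_⟩
    · exact Ideal.IsPrime.comap (hK := (v.1 : PrimeSpectrum R).isPrime) _
    · exact (mem_puncturedSpec (B := A) _).mpr
        (hmem' v.1 ((mem_puncturedSpec (B := R) _).mp v.2))
    · exact (specializes_iff (FEt.puncturedSpec R) _ v).mpr Ideal.map_comap_le

end Groth.Agent.Sga2lef.H90.ConnC
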