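import Groth.Agent.Ega41.PowComplete
import Mathlib.RingTheory.Smooth.AdicCompletion
import Mathlib.RingTheory.Unramified.LocalStructure

/-!
# Étale coordinates along a section of a smooth algebra

For `C` smooth over the local ring `A` and a section `σ : C → A`, there are `f : C` with `σ f` a unit,
an étale map `A[T₁, …, T_d] → C_f` and an `A[T]`-algebra map `φ : C_f → A[[T]]` with
`φ c ≡ σ c` modulo `T`.
-/

set_option autoImplicit false
universe u

namespace Groth.Agent.Sga2lef.H90.Coord

open MvPowerSeries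

/-- Lifting a section to power series. -/
theorem exists_lift {A C : Type u} [CommRing A] [CommRing C] (d : ℕ)
    [Algebra (MvPolynomial (Fin d) A) C] [Algebra.FormallySmooth (MvPolynomial (Fin d) A) C]
    (σ : C →+* A) (hσ : ∀ p : MvPolynomial (Fin d) A,
      σ (algebraMap _ C p) = MvPolynomial.constantCoeff p) :
    ∃ φ : C →ₐ[MvPolynomial (Fin d) A] MvPowerSeries (Fin d) A,
      ∀ c, MvPowerSeries.constantCoeff (φ c) = σ c := by
  let S := MvPowerSeries (Fin d) A
  let I : Ideal S := Ideal.span (Set.range (X : Fin d → MvPowerSeries (Fin d) A))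
  have hI : IsAdicComplete I S := Ega41.PowComplete.isAdicComplete_span_X _ _
  have hIc : ∀ f : S, f ∈ I ↔ constantCoeff f = 0 := fun f => Ega41.PowComplete.mem_span_X_iff _ _ f
  let f : C →ₐ[MvPolynomial (Fin d) A] S ⧸ I :=
    { ((Ideal.Quotient.mk I).comp (MvPowerSeries.C (σ := Fin d) (R := A))).comp σ with
      commutes' := fun p => by
        change Ideal.Quotient.mk I (MvPowerSeries.C (σ (algebraMap _ C p))) =
          Ideal.Quotient.mk I (algebraMap (MvPolynomial (Fin d) A) S p)
        rw [hσ, Ideal.Quotient.mk_eq_mk_iff_sub_mem, hIc, map_sub, constantCoeff_C, sub_eq_zero]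
        rfl }
  obtain ⟨g, hg⟩ := Algebra.FormallySmooth.exists_mkₐ_comp_eq_of_isAdicComplete (I := I) f
  refine ⟨g, fun c => ?_⟩
  have h1 : Ideal.Quotient.mk I (g c) = Ideal.Quotient.mk I (MvPowerSeries.C (σ c)) :=
    congr($hg c)
  rw [Ideal.Quotient.mk_eq_mk_iff_sub_mem, hIc, map_sub, constantCoeff_C, sub_eq_zero] at h1
  exact h1

/-- Translation of coordinates. -/
theorem exists_translate {A : Type u} [CommRing A] (n : ℕ) (a : Fin n → A) :
    ∃ e : MvPolynomial (Fin n) A ≃ₐ[A] MvPolynomial (Fin n) A,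
      ∀ i, e (MvPolynomial.X i) = MvPolynomial.X i - MvPolynomial.C (a i) := by
  let τ : MvPolynomial (Fin n) A →ₐ[A] MvPolynomial (Fin n) A :=
    MvPolynomial.aeval fun i => MvPolynomial.X i - MvPolynomial.C (a i)
  let τ' : MvPolynomial (Fin n) A →ₐ[A] MvPolynomial (Fin n) A :=
    MvPolynomial.aeval fun i => MvPolynomial.X i + MvPolynomial.C (a i)
  have hC : ∀ (ρ : MvPolynomial (Fin n) A →ₐ[A] MvPolynomial (Fin n) A) (r : A),
      ρ (MvPolynomial.C r) = MvPolynomial.C r := fun ρ r => ρ.commutes r
  have hτ : ∀ i, τ (MvPolynomial.X i) = MvPolynomial.X i - MvPolynomial.C (a i) := fun i =>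
    MvPolynomial.aeval_X _ _
  have hτ' : ∀ i, τ' (MvPolynomial.X i) = MvPolynomial.X i + MvPolynomial.C (a i) := fun i =>
    MvPolynomial.aeval_X _ _
  have h1 : τ.comp τ' = AlgHom.id A _ := by
    apply MvPolynomial.algHom_ext
    intro i
    rw [AlgHom.comp_apply, hτ', map_add, hC, hτ, AlgHom.id_apply, sub_add_cancel]
  have h2 : τ'.comp τ = AlgHom.id A _ := by
    apply MvPolynomial.algHom_ext
    intro i
    rw [AlgHom.comp_apply, hτ, map_sub, hC, hτ', AlgHom.id_apply, add_sub_cancel_right]
  exact ⟨AlgEquiv.ofAlgHom τ τ' h1 h2, hτ⟩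

/-- Étale coordinates along a section. -/
theorem exists_chart {A C : Type u} [CommRing A] [IsLocalRing A] [CommRing C] [Algebra A C]
    [Algebra.Smooth A C] (σ : C →ₐ[A] A) :
    ∃ (f : C) (_ : IsUnit (σ f)) (d : ℕ)
      (_ : Algebra (MvPolynomial (Fin d) A) (Localization.Away f))
      (_ : IsScalarTower A (MvPolynomial (Fin d) A) (Localization.Away f))
      (_ : Algebra.Etale (MvPolynomial (Fin d) A) (Localization.Away f))
      (φ : Localization.Away f →ₐ[MvPolynomial (Fin d) A] MvPowerSeries (Fin d) A),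
      ∀ c, MvPowerSeries.constantCoeff (φ (algebraMap C _ c)) = σ c := by
  let p : Ideal C := (IsLocalRing.maximalIdeal A).comap σ
  have hp : p.IsPrime := inferInstance
  obtain ⟨f, hf, n, g, hg, hgA⟩ : ∃ f ∉ p, ∃ (n : ℕ)
      (g : MvPolynomial (Fin n) A →+* Localization.Away f), g.Etale ∧
        ∀ r : A, g (MvPolynomial.C r) = algebraMap C _ (algebraMap A C r) := by
    obtain ⟨f, hf, n, alg, htow, hstd⟩ :=
      Algebra.IsSmoothAt.exists_isStandardEtale_mvPolynomial (R := A) (p := p)
    refine ⟨f, hf, n, algebraMap _ _, RingHom.etale_algebraMap.mpr inferInstance, fun r => ?_⟩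
    rw [← IsScalarTower.algebraMap_apply A C, IsScalarTower.algebraMap_apply A
      (MvPolynomial (Fin n) A) (Localization.Away f)]
    rfl
  have hfu : IsUnit (σ f) := by
    by_contra h
    exact hf ((IsLocalRing.mem_maximalIdeal _).mpr h)
  let P := MvPolynomial (Fin n) A
  let D := Localization.Away f
  let σ' : D →+* A := IsLocalization.Away.lift (S := D) f (g := (σ : C →+* A)) hfu
  have hσ' : ∀ c, σ' (algebraMap C D c) = σ c := fun c => IsLocalization.Away.lift_eq f hfu c
  let a : Fin n → A := fun i => σ' (g (MvPolynomial.X i))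
  obtain ⟨e, he⟩ := exists_translate n a
  have hC : ∀ r : A, e (MvPolynomial.C r) = MvPolynomial.C r := fun r => e.commutes r
  have hee : (e : P →+* P).Etale := RingHom.Etale.of_bijective e.bijective
  let g' : P →+* D := g.comp (e : P →+* P)
  have hg' : g'.Etale := RingHom.Etale.stableUnderComposition _ _ hee hg
  have hg'C : ∀ r : A, g' (MvPolynomial.C r) = algebraMap C D (algebraMap A C r) := by
    intro r
    rw [← hgA]
    exact congrArg g (hC r)
  have hσP : ∀ q : P, σ' (g' q) = MvPolynomial.constantCoeff q := by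
    have h3 : σ'.comp g' = MvPolynomial.constantCoeff := by
      apply MvPolynomial.ringHom_ext
      · intro r
        rw [RingHom.comp_apply, hg'C, hσ', AlgHom.commutes, MvPolynomial.constantCoeff_C]
        rfl
      · intro i
        have h5 : g' (MvPolynomial.X i) = g (MvPolynomial.X i) - g (MvPolynomial.C (a i)) := by
          rw [← map_sub, ← he]
          rfl
        rw [RingHom.comp_apply, h5, map_sub, hgA, hσ', AlgHom.commutes,
          MvPolynomial.constantCoeff_X]
        exact sub_self (a i)
    intro q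
    exact congr($h3 q)
  let alg' : Algebra P D := g'.toAlgebra
  have het' : Algebra.Etale P D := hg'
  have htow' : IsScalarTower A P D := by
    refine IsScalarTower.of_algebraMap_eq fun r => ?_
    rw [IsScalarTower.algebraMap_apply A C D, ← hg'C]
    rfl
  obtain ⟨φ, hφ⟩ := exists_lift (A := A) (C := D) n σ' hσP
  exact ⟨f, hfu, n, alg', htow', het', φ, fun c => (hφ _).trans (hσ' c)⟩

end Groth.Agent.Sga2lef.H90.Coord
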