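import Groth.Agent.CalgC.IndNormal
import Groth.Agent.Flat2E.SplitIntegral
import Mathlib.RingTheory.Ideal.GoingDown
import Mathlib.RingTheory.Flat.Stability
import Mathlib.RingTheory.TensorProduct.Quotient
import Mathlib.RingTheory.Ideal.GoingUp
import Mathlib.RingTheory.LocalRing.ResidueField.Ideal

/-!
# Common generizations in ind-smooth local algebras
-/

set_option autoImplicit false
universe u
open TensorProduct IsLocalRing

namespace Groth.Agent.Sga2lef.H90.Gen

open Groth.Agent.CalgC.IndEtale

/-- Going down inside the special fibre of a base change along an integral extension. -/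
theorem exists_prime_le {A A' B : Type u} [CommRing A] [IsLocalRing A] [CommRing A'] [CommRing B]
    [Algebra A A'] [Algebra A B] (n : Ideal (A' ⊗[A] B)) [n.IsPrime]
    (_hm : (n.comap (algebraMap A' (A' ⊗[A] B))).IsMaximal)
    (hmA : (n.comap (algebraMap A' (A' ⊗[A] B))).comap (algebraMap A A') = maximalIdeal A)
    (Q : Ideal B) [Q.IsPrime] (hQ : (maximalIdeal A).map (algebraMap A B) ≤ Q)
    (hQn : Q ≤ n.comap (Algebra.TensorProduct.includeRight : B →ₐ[A] A' ⊗[A] B).toRingHom) :
    ∃ Q' : Ideal (A' ⊗[A] B), Q'.IsPrime ∧ Q' ≤ n ∧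
      Q'.comap (Algebra.TensorProduct.includeRight : B →ₐ[A] A' ⊗[A] B).toRingHom = Q := by
  set m' : Ideal A' := n.comap (algebraMap A' (A' ⊗[A] B)) with hm'
  let k := ResidueField A
  let k' := A' ⧸ m'
  have hk' : IsDomain k' := inferInstance
  have hz : ∀ a ∈ maximalIdeal A, algebraMap A k' a = 0 := by
    intro a h1
    rw [← hmA, Ideal.mem_comap] at h1
    rw [IsScalarTower.algebraMap_apply A A' k']
    exact Ideal.Quotient.eq_zero_iff_mem.mpr h1
  let _ : Algebra k k' := (Ideal.Quotient.lift (maximalIdeal A) (algebraMap A k') hz).toAlgebra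
  have ht : IsScalarTower A k k' := IsScalarTower.of_algebraMap_eq fun a => rfl
  let D := k ⊗[A] B
  let E := D ⊗[k] k'
  let e : E ≃ₐ[k] k' ⊗[A] B :=
    (Algebra.TensorProduct.comm k D k').trans
      ((Algebra.TensorProduct.cancelBaseChange A k k' k' B).restrictScalars k)
  let ψ : A' ⊗[A] B →ₐ[A] k' ⊗[A] B := Algebra.TensorProduct.map (Ideal.Quotient.mkₐ A m')
    (AlgHom.id A B)
  have hψ : Function.Surjective ψ := Algebra.TensorProduct.map_surjective _ _
    (Ideal.Quotient.mkₐ_surjective A m') Function.surjective_id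
  have hker : RingHom.ker ψ ≤ n := by
    have h1 : RingHom.ker ψ = (RingHom.ker (Ideal.Quotient.mkₐ A m')).map
        (Algebra.TensorProduct.includeLeft : A' →ₐ[A] A' ⊗[A] B) :=
      Algebra.TensorProduct.rTensor_ker (Ideal.Quotient.mkₐ A m') (Ideal.Quotient.mkₐ_surjective A m')
    rw [h1, Ideal.map_le_iff_le_comap]
    intro x hx
    exact (Ideal.Quotient.eq_zero_iff_mem.mp hx : x ∈ m')
  let n₁ : Ideal (k' ⊗[A] B) := n.map ψ
  have hn₁ : n₁.IsPrime := Ideal.map_isPrime_of_surjective hψ hker
  have hn₁' : n₁.comap ψ = n := by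
    rw [Ideal.comap_map_of_surjective ψ hψ, sup_eq_left]
    exact hker
  let J : Ideal E := n₁.comap e
  have hJ : J.IsPrime := inferInstance
  let i : B →+* D := (Algebra.TensorProduct.includeRight : B →ₐ[A] D).toRingHom
  have hi : Function.Surjective i := by
    intro z
    induction z using TensorProduct.induction_on with
    | zero => exact ⟨0, map_zero _⟩
    | add x y hx hy =>
      obtain ⟨x', rfl⟩ := hx
      obtain ⟨y', rfl⟩ := hy
      exact ⟨x' + y', map_add _ _ _⟩
    | tmul a b =>
      obtain ⟨a', rfl⟩ := residue_surjective a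
      refine ⟨a' • b, ?_⟩
      change (1 : k) ⊗ₜ[A] (a' • b) = _
      rw [TensorProduct.tmul_smul, TensorProduct.smul_tmul', Algebra.smul_def, mul_one]
      rfl
  have hie : ∀ b : B, e (algebraMap D E (i b)) = ψ (1 ⊗ₜ b) := by
    intro b
    change (Algebra.TensorProduct.cancelBaseChange A k k' k' B)
      ((Algebra.TensorProduct.comm k D k') (((1 : k) ⊗ₜ[A] b) ⊗ₜ[k] (1 : k'))) =
        (Algebra.TensorProduct.map (Ideal.Quotient.mkₐ A m') (AlgHom.id A B)) (1 ⊗ₜ b)
    rw [Algebra.TensorProduct.comm_tmul, Algebra.TensorProduct.cancelBaseChange_tmul,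
      Algebra.TensorProduct.map_tmul, map_one, one_smul]
    rfl
  have hkeri : RingHom.ker i ≤ Q := by
    have h1 : RingHom.ker i = (maximalIdeal A).map (algebraMap A B) := by
      have h2 : RingHom.ker (Algebra.TensorProduct.map (Algebra.ofId A k) (AlgHom.id A B)) =
          (RingHom.ker (Algebra.ofId A k)).map
            (Algebra.TensorProduct.includeLeft : A →ₐ[A] A ⊗[A] B) :=
        Algebra.TensorProduct.rTensor_ker (Algebra.ofId A k) residue_surjective
      have h3 : ∀ b : B, i b = (Algebra.TensorProduct.map (Algebra.ofId A k) (AlgHom.id A B))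
        ((1 : A) ⊗ₜ[A] b) := by intro b; simp [i]
      apply le_antisymm
      · intro b hb
        have h4 : (1 : A) ⊗ₜ[A] b ∈ RingHom.ker (Algebra.TensorProduct.map (Algebra.ofId A k) (AlgHom.id A B)) := by
          rw [RingHom.mem_ker, ← h3]; exact hb
        rw [h2] at h4
        have h5 : (RingHom.ker (Algebra.ofId A k)).map
            (Algebra.TensorProduct.includeLeft : A →ₐ[A] A ⊗[A] B) ≤
            ((maximalIdeal A).map (algebraMap A B)).comap (Algebra.TensorProduct.lid A B) := by
          rw [Ideal.map_le_iff_le_comap]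
          intro x hx
          have hx' : x ∈ maximalIdeal A := (residue_eq_zero_iff x).mp hx
          rw [Ideal.mem_comap, Ideal.mem_comap]
          have h6 : (Algebra.TensorProduct.lid A B)
              ((Algebra.TensorProduct.includeLeft : A →ₐ[A] A ⊗[A] B) x) = algebraMap A B x := by
            simp [Algebra.algebraMap_eq_smul_one]
          rw [h6]
          exact Ideal.mem_map_of_mem _ hx'
        have h6 := h5 h4
        rw [Ideal.mem_comap, Algebra.TensorProduct.lid_tmul, one_smul] at h6
        exact h6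
      · rw [Ideal.map_le_iff_le_comap]
        intro a ha
        rw [Ideal.mem_comap, RingHom.mem_ker]
        change (1 : k) ⊗ₜ[A] (algebraMap A B a) = 0
        rw [Algebra.algebraMap_eq_smul_one, TensorProduct.tmul_smul, TensorProduct.smul_tmul',
          Algebra.smul_def, mul_one]
        have : algebraMap A k a = 0 := (residue_eq_zero_iff a).mpr ha
        rw [this, TensorProduct.zero_tmul]
    rw [h1]; exact hQ
  let QD : Ideal D := Q.map i
  have hQD : QD.IsPrime := Ideal.map_isPrime_of_surjective hi hkeri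
  have hQD' : QD.comap i = Q := by
    rw [Ideal.comap_map_of_surjective i hi, sup_eq_left]
    exact hkeri
  have hle : QD ≤ J.under D := by
    rw [Ideal.map_le_iff_le_comap]
    intro b hb
    have h1 := hQn hb
    rw [Ideal.mem_comap] at h1
    rw [Ideal.mem_comap, Ideal.mem_comap, Ideal.mem_comap, hie]
    exact Ideal.mem_map_of_mem ψ h1
  have : J.LiesOver (J.under D) := ⟨rfl⟩
  obtain ⟨Q₁, hQ₁le, hQ₁p, hQ₁⟩ := Ideal.exists_ideal_le_liesOver_of_le (p := QD) (q := J.under D) J hle
  refine ⟨(Q₁.comap e.symm).comap ψ, inferInstance, ?_, ?_⟩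
  · rw [← hn₁']
    apply Ideal.comap_mono
    intro x hx
    have h1 := hQ₁le hx
    rw [Ideal.mem_comap] at h1
    simpa using h1
  · ext b
    have h1 : e.symm (ψ (1 ⊗ₜ b)) = algebraMap D E (i b) := by
      rw [← hie, AlgEquiv.symm_apply_apply]
    constructor
    · intro hb
      have h2 : e.symm (ψ (1 ⊗ₜ b)) ∈ Q₁ := hb
      rw [h1] at h2
      have h3 : i b ∈ Q₁.under D := h2
      rw [← hQ₁.over] at h3
      rw [← hQD']
      exact h3
    · intro hb
      change e.symm (ψ (1 ⊗ₜ b)) ∈ Q₁
      rw [h1]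
      change i b ∈ Q₁.under D
      rw [← hQ₁.over]
      exact Ideal.mem_map_of_mem _ hb

theorem isMaximal_comap {R S : Type*} [CommRing R] [CommRing S] (f : R →+* S)
    (hf : ∀ x : S, ∃ g : Polynomial R, g.Monic ∧ Polynomial.eval₂ f x g = 0) (n : Ideal S)
    [hn : n.IsMaximal] : (n.comap f).IsMaximal :=
  Ideal.isMaximal_comap_of_isIntegral_of_isMaximal' f hf n

/-- In a local ind-smooth algebra over a local ring, every point has a common generization with every
point of the closed fibre. -/
theorem exists_common_generization {A B : Type u} [CommRing A] [IsLocalRing A] [CommRing B]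
    [IsLocalRing B] [Algebra A B] [IsLocalHom (algebraMap A B)] (h : IsIndSmooth A B)
    (Q : Ideal B) [Q.IsPrime] (hQ : (maximalIdeal A).map (algebraMap A B) ≤ Q)
    (v : Ideal B) [v.IsPrime] : ∃ P : Ideal B, P.IsPrime ∧ P ≤ v ∧ P ≤ Q := by
  let p : Ideal A := v.comap (algebraMap A B)
  let K := p.ResidueField
  let A' := integralClosure (A ⧸ p) K
  have hA' : IsIntegrallyClosed A' :=
    integralClosure.isIntegrallyClosedOfFiniteExtension (R := A ⧸ p) (L := K) p.ResidueField
  have hint' : Algebra.IsIntegral (A ⧸ p) A' := inferInstance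
  have hint : Algebra.IsIntegral A A' := by
    have h1 : Algebra.IsIntegral A (A ⧸ p) := inferInstance
    exact Algebra.IsIntegral.trans (A ⧸ p)
  let R' := A' ⊗[A] B
  let ι : B →+* R' := (Algebra.TensorProduct.includeRight : B →ₐ[A] R').toRingHom
  have hι : ∀ x : R', ∃ f : Polynomial B, f.Monic ∧ Polynomial.eval₂ ι x f = 0 := by
    intro x
    let c : B ⊗[A] A' ≃ₐ[A] R' := Algebra.TensorProduct.comm A B A'
    obtain ⟨f, hf, hf'⟩ := Algebra.IsIntegral.isIntegral (R := B) (A := B ⊗[A] A') (c.symm x)
    refine ⟨f, hf, ?_⟩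
    have h1 : ∀ b : B, c (algebraMap B (B ⊗[A] A') b) = ι b := by
      intro b
      change (Algebra.TensorProduct.comm A B A') (b ⊗ₜ 1) = (1 : A') ⊗ₜ[A] b
      rw [Algebra.TensorProduct.comm_tmul]
    have h2 := congrArg c hf'
    rw [map_zero, Polynomial.eval₂_eq_sum_range, map_sum] at h2
    rw [Polynomial.eval₂_eq_sum_range, ← h2]
    refine Finset.sum_congr rfl fun i _ => ?_
    rw [map_mul, map_pow, h1, AlgEquiv.apply_symm_apply]
  have hR' : IsIndSmooth A' R' := IsInd.baseChange isGood_smooth h A'
  obtain ⟨v', hv'p, hv'0, hv'⟩ := Groth.Agent.Flat2E.SplitIntegral.exists_prime_tensorProduct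
    (R := A) (⊥ : Ideal A') v (by
      change _ = p
      ext a
      rw [Ideal.mem_comap, Ideal.mem_bot, ← Ideal.algebraMap_residueField_eq_zero (I := p),
        ← (FaithfulSMul.algebraMap_injective A' K).eq_iff, map_zero]
      rfl)
  obtain ⟨n, hn, hvn⟩ := v'.exists_le_maximal hv'p.ne_top
  have hnB : n.comap ι = maximalIdeal B := by
    have : (n.comap ι).IsMaximal := isMaximal_comap ι hι n
    exact IsLocalRing.eq_maximalIdeal this
  have hnA : (n.comap (algebraMap A' R')).comap (algebraMap A A') = maximalIdeal A := by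
    rw [Ideal.comap_comap, ← IsScalarTower.algebraMap_eq]
    have h1 : algebraMap A R' = ι.comp (algebraMap A B) :=
      ((Algebra.TensorProduct.includeRight : B →ₐ[A] R').comp_algebraMap).symm
    rw [h1, ← Ideal.comap_comap, hnB]
    have hloc : IsLocalHom (algebraMap A B) := inferInstance
    exact ((IsLocalRing.local_hom_TFAE (algebraMap A B)).out 0 4).mp hloc
  have hm : (n.comap (algebraMap A' R')).IsMaximal := by
    apply Ideal.isMaximal_of_isIntegral_of_isMaximal_comap (R := A)
    rw [hnA]
    infer_instance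
  obtain ⟨Q', hQ'p, hQ'n, hQ'⟩ := exists_prime_le (A := A) (A' := A') (B := B) n hm hnA Q hQ (by
    change Q ≤ n.comap ι
    rw [hnB]
    exact IsLocalRing.le_maximalIdeal_of_isPrime Q)
  let L := Localization.AtPrime n
  have hL : IsIndSmooth A' L := IsInd.comp (B := A' ⊗[A] B) isGood_smooth
    (IsInd.baseChange isGood_smooth h A')
    (IsInd.of_isIndEtale isGood_smooth (isIndEtale_of_isLocalization n.primeCompl L))
  have hdom := (Groth.Agent.CalgC.IndNormal.isDomain_and_isIntegrallyClosed' hL).1
  let P' : Ideal R' := RingHom.ker (algebraMap R' L)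
  have hP' : P'.IsPrime := RingHom.ker_isPrime _
  have hle : ∀ W : Ideal R', W.IsPrime → W ≤ n → P' ≤ W := by
    intro W hW hWn x hx
    have h1 : algebraMap R' L x = 0 := hx
    rw [IsLocalization.map_eq_zero_iff n.primeCompl] at h1
    obtain ⟨s, hs⟩ := h1
    have h2 : (s : R') * x ∈ W := by rw [hs]; exact W.zero_mem
    exact (hW.mem_or_mem h2).resolve_left fun h3 => s.2 (hWn h3)
  exact ⟨P'.comap ι, inferInstance, (Ideal.comap_mono (hle v' hv'p hvn)).trans hv'.le,
    (Ideal.comap_mono (hle Q' hQ'p hQ'n)).trans hQ'.le⟩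

end Groth.Agent.Sga2lef.H90.Gen
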