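import Groth.Agent.Pi1A.FEtLimit
import Groth.Agent.Pi1A.FGLimit
import Groth.Agent.Pi1.H395.ExtBC
import Groth.Agent.CalgC.IndEtale

/-!
# Spreading out finite étale covers and their extensions
-/

set_option autoImplicit false
universe u

open TensorProduct CategoryTheory CategoryTheory.Limits AlgebraicGeometry

namespace Groth.Agent.Sga2lef.H90.Spread

open Groth.Agent.Pi1A.FEtGlue Groth.Agent.Pi1A.FGLimit Groth.Agent.Pi1.H395.ExtBC
open Groth.Agent.CalgC.IndEtale Groth.Agent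

/-- Base change of a cover along a pullback square of opens. -/
theorem extOver_restrict_iff_of_isPullback {X₁ X : Scheme.{u}} {U₁ : X₁.Opens} {U : X.Opens}
    {h : X₁ ⟶ X} {κ : (U₁ : Scheme.{u}) ⟶ (U : Scheme.{u})} (hsq : IsPullback κ U₁.ι U.ι h)
    (V : FEt.Cat (U : Scheme.{u})) {T : Scheme.{u}} (g : T ⟶ X₁) :
    ExtOver ((FEt.restrict κ).obj V) g ↔ ExtOver V (g ≫ h) := by
  have h2 : IsPullback (pullback.fst U₁.ι g) (pullback.snd U₁.ι g) U₁.ι g :=
    IsPullback.of_hasPullback _ _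
  have h3 : IsPullback (pullback.fst U₁.ι g ≫ κ) (pullback.snd U₁.ι g) U.ι (g ≫ h) :=
    h2.paste_horiz hsq
  rw [extOver_iff_of_isPullback h3]
  constructor
  · rintro ⟨Y, ⟨e⟩⟩
    exact ⟨Y, ⟨e ≪≫ (restrictComp (pullback.fst U₁.ι g) κ).symm.app V⟩⟩
  · rintro ⟨Y, ⟨e⟩⟩
    exact ⟨Y, ⟨e ≪≫ (restrictComp (pullback.fst U₁.ι g) κ).app V⟩⟩

theorem extOver_congr {X : Scheme.{u}} {U : X.Opens} {V V' : FEt.Cat (U : Scheme.{u})} (i : V ≅ V')
    {T : Scheme.{u}} (g : T ⟶ X) : ExtOver V g ↔ ExtOver V' g :=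
  ⟨extOver_of_iso i, extOver_of_iso i.symm⟩

theorem exists_isPullback {X X₁ X₂ : Scheme.{u}} (U : X.Opens) (p₁ : X₁ ⟶ X) (p₂ : X₂ ⟶ X)
    (h : X₁ ⟶ X₂) (hh : h ≫ p₂ = p₁) :
    ∃ κ : (p₁ ⁻¹ᵁ U : Scheme.{u}) ⟶ (p₂ ⁻¹ᵁ U : Scheme.{u}),
      IsPullback κ (p₁ ⁻¹ᵁ U).ι (p₂ ⁻¹ᵁ U).ι h := by
  subst hh
  exact ⟨h ∣_ (p₂ ⁻¹ᵁ U), isPullback_morphismRestrict h (p₂ ⁻¹ᵁ U)⟩

/-- Pulling back covers of the preimages of an open of the base. -/
theorem exists_restrict {X X₁ X₂ : Scheme.{u}} (U : X.Opens) (p₁ : X₁ ⟶ X) (p₂ : X₂ ⟶ X)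
    (h : X₁ ⟶ X₂) (hh : h ≫ p₂ = p₁) (V : FEt.Cat (p₂ ⁻¹ᵁ U : Scheme.{u})) :
    ∃ V' : FEt.Cat (p₁ ⁻¹ᵁ U : Scheme.{u}), ∀ (T : Scheme.{u}) (g : T ⟶ X₁),
      ExtOver V' g ↔ ExtOver V (g ≫ h) := by
  obtain ⟨κ, hκ⟩ := exists_isPullback U p₁ p₂ h hh
  exact ⟨(FEt.restrict κ).obj V, fun T g => extOver_restrict_iff_of_isPullback hκ V g⟩

/-- Pulling back covers of an open. -/
theorem exists_restrict' {X₁ X : Scheme.{u}} (U₁ : X₁.Opens) (U : X.Opens) (h : X₁ ⟶ X)
    (hU : U₁ = h ⁻¹ᵁ U) (V : FEt.Cat (U : Scheme.{u})) :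
    ∃ V' : FEt.Cat (U₁ : Scheme.{u}), ∀ (T : Scheme.{u}) (g : T ⟶ X₁),
      ExtOver V' g ↔ ExtOver V (g ≫ h) := by
  subst hU
  exact ⟨(FEt.restrict (h ∣_ U)).obj V, fun T g =>
    extOver_restrict_iff_of_isPullback (isPullback_morphismRestrict h U) V g⟩

section

variable {R : Type u} [CommRing R] (U : (Spec (CommRingCat.of R)).Opens) [QuasiCompact U.ι]
  {B : Type u} [CommRing B] [Algebra R B]

/-- A finite étale cover of the preimage of `U` in `Spec B` comes from a finitely generated subalgebra. -/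
theorem exists_fg (U₀ : (Spec (CommRingCat.of B)).Opens) (hU₀ : U₀ = toBase R B ⁻¹ᵁ U)
    (W : FEt.Cat (U₀ : Scheme.{u})) :
    ∃ (F : Finset B) (W' : FEt.Cat (toBase R (Algebra.adjoin R (F : Set B)) ⁻¹ᵁ U : Scheme.{u})),
      ∀ (T : Scheme.{u}) (g : T ⟶ Spec (CommRingCat.of B)), ExtOver W g ↔
        ExtOver W' (g ≫ Spec.map (CommRingCat.ofHom
          (Algebra.adjoin R (F : Set B)).val.toRingHom)) := by
  subst hU₀
  have hB : IsPullback (toBase R B ∣_ U) (toBase R B ⁻¹ᵁ U).ι U.ι (toBase R B) :=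
    isPullback_morphismRestrict _ _
  let W₁ : FEt.Cat (cone R B U.ι).pt := (FEt.restrict hB.isoPullback.inv).obj W
  obtain ⟨F, W₂, ⟨e⟩⟩ := Pi1A.FEtLimit.exists_obj (isLimit R B U.ι) W₁
  let A' := Algebra.adjoin R (F.unop : Set B)
  have hA : IsPullback (toBase R A' ∣_ U) (toBase R A' ⁻¹ᵁ U).ι U.ι (toBase R A') :=
    isPullback_morphismRestrict _ _
  let s : Spec (CommRingCat.of B) ⟶ Spec (CommRingCat.of A') :=
    Spec.map (CommRingCat.ofHom A'.val.toRingHom)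
  have hs : s ≫ toBase R A' = toBase R B := specCone_base R B F
  obtain ⟨κ, hκ⟩ := exists_isPullback U (toBase R B) (toBase R A') s hs
  let πF : pullback U.ι (toBase R B) ⟶ pullback U.ι (toBase R A') := (cone R B U.ι).π.app F
  have hc2 : πF ≫ pullback.snd U.ι (toBase R A') =
      pullback.snd U.ι (toBase R B) ≫ s :=
    pbCone_snd (specDiag R B) (specBase R B) U.ι (specCone R B) (toBase R B) (specCone_base R B) F
  have hcomm : hB.isoPullback.hom ≫ πF = κ ≫ hA.isoPullback.hom := by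
    rw [← cancel_mono (pullback.snd U.ι (toBase R A')), Category.assoc, hc2, Category.assoc,
      hA.isoPullback_hom_snd, hB.isoPullback_hom_snd_assoc, hκ.w]
  let W' : FEt.Cat (toBase R A' ⁻¹ᵁ U : Scheme.{u}) := (FEt.restrict hA.isoPullback.hom).obj W₂
  have i1 : (FEt.restrict κ).obj W' ≅ W :=
    (restrictComp κ hA.isoPullback.hom).symm.app W₂ ≪≫ (restrictCongr hcomm.symm).app W₂ ≪≫
      (restrictComp hB.isoPullback.hom πF).app W₂ ≪≫ (FEt.restrict hB.isoPullback.hom).mapIso e ≪≫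
      (restrictComp hB.isoPullback.hom hB.isoPullback.inv).symm.app W ≪≫
      (restrictCongr hB.isoPullback.hom_inv_id).app W ≪≫ (restrictId _).app W
  refine ⟨F.unop, W', fun T g => ?_⟩
  rw [← extOver_congr i1]
  exact extOver_restrict_iff_of_isPullback hκ W' g

end

/-- A finite étale cover of an open of the spectrum of an ind-smooth algebra `B`, which is the preimage of
an open `U` of the base, comes from a smooth algebra. -/
theorem exists_smooth {A B : Type u} [CommRing A] [IsNoetherianRing A] [CommRing B] [Algebra A B]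
    (h : IsIndSmooth A B) (U : (Spec (CommRingCat.of A)).Opens)
    (U₀ : (Spec (CommRingCat.of B)).Opens) (hU₀ : U₀ = toBase A B ⁻¹ᵁ U)
    (W : FEt.Cat (U₀ : Scheme.{u})) :
    ∃ (C : Type u) (_ : CommRing C) (_ : Algebra A C) (_ : Algebra.Smooth A C) (χ : C →ₐ[A] B)
      (V : FEt.Cat (toBase A C ⁻¹ᵁ U : Scheme.{u})),
      ∀ (T : Scheme.{u}) (g : T ⟶ Spec (CommRingCat.of B)), ExtOver W g ↔
        ExtOver V (g ≫ Spec.map (CommRingCat.ofHom (χ : C →+* B))) := by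
  have : IsLocallyNoetherian (U : Scheme.{u}) := inferInstance
  obtain ⟨F, W', hW'⟩ := exists_fg U U₀ hU₀ W
  let A' := Algebra.adjoin A (F : Set B)
  have hA'fg : A'.FG := ⟨F, rfl⟩
  have hA'ft : Algebra.FiniteType A A' := A'.fg_iff_finiteType.mp hA'fg
  have hA'fp : Algebra.FinitePresentation A A' := Algebra.FinitePresentation.of_finiteType.mp hA'ft
  obtain ⟨C, _, _, hC, ψ, χ, hχ⟩ := h A' A'.val
  have h1 : Spec.map (CommRingCat.ofHom (ψ : A' →+* C)) ≫ toBase A A' = toBase A C := by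
    rw [← Spec.map_comp, ← CommRingCat.ofHom_comp]
    congr 2
    exact ψ.comp_algebraMap
  obtain ⟨V, hV⟩ := exists_restrict U (toBase A C) (toBase A A')
    (Spec.map (CommRingCat.ofHom (ψ : A' →+* C))) h1 W'
  refine ⟨C, inferInstance, inferInstance, hC, χ, V, fun T g => ?_⟩
  rw [hW', hV, Category.assoc, ← Spec.map_comp, ← CommRingCat.ofHom_comp]
  have h2 : (χ : C →+* B).comp (ψ : A' →+* C) = A'.val.toRingHom := by
    rw [← hχ]
    rfl
  rw [h2]

/-- If a finite étale cover of an open of `Spec A` extends over an ind-smooth algebra, it extends over a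
smooth algebra mapping to it. -/
theorem exists_smooth_extOver {A S : Type u} [CommRing A] [IsNoetherianRing A] [CommRing S]
    [Algebra A S] (h : IsIndSmooth A S) (U : (Spec (CommRingCat.of A)).Opens)
    (W : FEt.Cat (U : Scheme.{u})) (hW : ExtOver W (toBase A S)) :
    ∃ (D : Type u) (_ : CommRing D) (_ : Algebra A D) (_ : Algebra.Smooth A D) (_ : D →ₐ[A] S),
      ExtOver W (toBase A D) := by
  have : IsLocallyNoetherian (U : Scheme.{u}) := inferInstance
  obtain ⟨Y, ⟨e⟩⟩ := hW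
  have hc : ∀ i, CompactSpace ((specDiag A S).obj i) := fun i =>
    inferInstanceAs (CompactSpace (Spec _))
  have hq : ∀ i, QuasiSeparatedSpace ((specDiag A S).obj i) := fun i =>
    inferInstanceAs (QuasiSeparatedSpace (Spec _))
  obtain ⟨F, Y₀, ⟨e₀⟩⟩ := Pi1A.FEtLimit.exists_obj (specIsLimit A S) Y
  let A₀ := Algebra.adjoin A (F.unop : Set S)
  let Y₀' : FEt.Cat (Spec (CommRingCat.of A₀)) := Y₀
  let s : Spec (CommRingCat.of S) ⟶ Spec (CommRingCat.of A₀) :=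
    Spec.map (CommRingCat.ofHom A₀.val.toRingHom)
  have e₀' : (FEt.restrict s).obj Y₀' ≅ Y := e₀
  let Va : FEt.Cat ((diag A S U.ι).obj F) := (FEt.restrict (pullback.snd U.ι (toBase A A₀))).obj Y₀'
  let Vb : FEt.Cat ((diag A S U.ι).obj F) := (FEt.restrict (pullback.fst U.ι (toBase A A₀))).obj W
  let πF : pullback U.ι (toBase A S) ⟶ pullback U.ι (toBase A A₀) := (cone A S U.ι).π.app F
  have hc1 : πF ≫ pullback.fst U.ι (toBase A A₀) = pullback.fst U.ι (toBase A S) :=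
    pbCone_fst (specDiag A S) (specBase A S) U.ι (specCone A S) (toBase A S) (specCone_base A S) F
  have hc2 : πF ≫ pullback.snd U.ι (toBase A A₀) = pullback.snd U.ι (toBase A S) ≫ s :=
    pbCone_snd (specDiag A S) (specBase A S) U.ι (specCone A S) (toBase A S) (specCone_base A S) F
  have i1 : (FEt.restrict πF).obj Va ≅ (FEt.restrict πF).obj Vb :=
    (restrictComp πF (pullback.snd U.ι (toBase A A₀))).symm.app Y₀' ≪≫
      (restrictCongr hc2).app Y₀' ≪≫
      (restrictComp (pullback.snd U.ι (toBase A S)) s).app Y₀' ≪≫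
      (FEt.restrict (pullback.snd U.ι (toBase A S))).mapIso e₀' ≪≫ e ≪≫
      (restrictCongr hc1.symm).app W ≪≫
      (restrictComp πF (pullback.fst U.ι (toBase A A₀))).app W
  obtain ⟨G, φ, ⟨i2⟩⟩ := Pi1A.FEtLimit.exists_iso (isLimit A S U.ι) F Va Vb i1
  let A₁ := Algebra.adjoin A (G.unop : Set S)
  let t : Spec (CommRingCat.of A₁) ⟶ Spec (CommRingCat.of A₀) := (specDiag A S).map φ
  let τ : pullback U.ι (toBase A A₁) ⟶ pullback U.ι (toBase A A₀) := (diag A S U.ι).map φ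
  have hd1 : τ ≫ pullback.fst U.ι (toBase A A₀) = pullback.fst U.ι (toBase A A₁) :=
    pbDiag_map_fst (specDiag A S) (specBase A S) U.ι φ
  have hd2 : τ ≫ pullback.snd U.ι (toBase A A₀) = pullback.snd U.ι (toBase A A₁) ≫ t :=
    pbDiag_map_snd (specDiag A S) (specBase A S) U.ι φ
  have key : ExtOver W (toBase A A₁) := by
    refine ⟨(FEt.restrict t).obj Y₀', ⟨?_⟩⟩
    exact (restrictComp (pullback.snd U.ι (toBase A A₁)) t).symm.app Y₀' ≪≫
      (restrictCongr hd2.symm).app Y₀' ≪≫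
      (restrictComp τ (pullback.snd U.ι (toBase A A₀))).app Y₀' ≪≫ i2 ≪≫
      (restrictComp τ (pullback.fst U.ι (toBase A A₀))).symm.app W ≪≫
      (restrictCongr hd1).app W
  have hA'fg : A₁.FG := ⟨G.unop, rfl⟩
  have hA'ft : Algebra.FiniteType A A₁ := A₁.fg_iff_finiteType.mp hA'fg
  have hA'fp : Algebra.FinitePresentation A A₁ := Algebra.FinitePresentation.of_finiteType.mp hA'ft
  obtain ⟨D, _, _, hD, ψ, χ, hχ⟩ := h A₁ A₁.val
  refine ⟨D, inferInstance, inferInstance, hD, χ,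
    key.of_eq_comp (Spec.map (CommRingCat.ofHom (ψ : A₁ →+* D))) ?_⟩
  rw [← Spec.map_comp, ← CommRingCat.ofHom_comp]
  congr 2
  exact ψ.comp_algebraMap

end Groth.Agent.Sga2lef.H90.Spread
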